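import Mathlib
import Cfsg.Agent.Helper9.OrdCount
import Cfsg.Agent.Helper21.Zass6
import Cfsg.Agent.Helper57.ListSub

set_option autoImplicit false
set_option linter.style.haveILetI false
set_option linter.unusedSectionVars false

/-!
# Recognition of `PSL(2, 2^n)` from element counts (helper9)

`OrdTools.iso_psl_of_count`: let `T` be a Sylow `2`-subgroup of the finite group `G`, of order
`> 2` and not normal. If the centralizer of every involution is a `2`-group and `G` has at most
`|G : T|` nontrivial `2`-elements, then `G ≅ PSL(2, F)` for every field `F` with `|T|`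
elements. (Built on helper21's Zassenhaus-group theorem `Helper21.Zass.main`.)
-/

namespace Cfsg.Agent.Helper9

namespace OrdTools

open Subgroup

variable {G : Type*} [Group G] [Finite G]

theorem iso_psl_of_count (T : Sylow 2 G) (hT : 2 < Nat.card (T : Subgroup G))
    (hnn : ¬ (T : Subgroup G).Normal)
    (hcount : Nat.card {g : G // g ≠ 1 ∧ g ^ Nat.card (T : Subgroup G) = 1} ≤
      (T : Subgroup G).index)
    (hC : ∀ z : G, orderOf z = 2 → ∀ c ∈ centralizer ({z} : Set G),
      c ^ Nat.card (T : Subgroup G) = 1)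
    {F : Type*} [Field F] [Fintype F] (hF : Fintype.card F = Nat.card (T : Subgroup G)) :
    Nonempty (G ≃* Matrix.ProjectiveSpecialLinearGroup (Fin 2) F) := by
  obtain ⟨hTsq, hinv⟩ := invol_centralizer_of_count T (by omega) hcount hC
  have hnc : ¬ IsCyclic (T : Subgroup G) := by
    intro hcyc
    obtain ⟨g, hg⟩ := hcyc.exists_generator
    have h1 : orderOf g = Nat.card (T : Subgroup G) := orderOf_eq_card_of_forall_mem_zpowers hg
    have h2 : g ^ 2 = 1 := Subtype.ext (by rw [Subgroup.coe_pow]; exact hTsq g g.2)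
    have h3 := orderOf_dvd_of_pow_eq_one h2
    have := Nat.le_of_dvd (by norm_num) h3
    omega
  obtain ⟨F', iF, iFT, hF', ⟨φ⟩⟩ := Cfsg.Agent.Helper21.Zass.main ⟨hnc, hnn, hinv⟩
  have hcc : Fintype.card F' = Fintype.card F := by rw [hF', hF]
  exact ⟨φ.trans (Cfsg.Agent.Helper57.pslCongr (FiniteField.ringEquivOfCardEq hcc))⟩

omit [Finite G] in
/-- membership in a normalizer from two-sided conjugation stability. -/
theorem mem_normalizer_of_conj {H : Subgroup G} {g : G} (h : ∀ a ∈ H, g * a * g⁻¹ ∈ H)
    (h' : ∀ a ∈ H, g⁻¹ * a * g ∈ H) : g ∈ normalizer (H : Set G) := by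
  rw [Subgroup.mem_normalizer_iff]
  intro a
  constructor
  · exact h a
  · intro ha
    have := h' _ ha
    simpa [mul_assoc] using this

omit [Finite G] in
/-- an element with `g ^ a = 1` and `g ^ b = 1` for coprime `a`, `b` is trivial. -/
theorem eq_one_of_pow_coprime {g : G} {a b : ℕ} (hab : Nat.Coprime a b) (ha : g ^ a = 1)
    (hb : g ^ b = 1) : g = 1 := by
  have h1 : g ^ Nat.gcd a b = 1 := pow_gcd_eq_one.mpr ⟨ha, hb⟩
  have h2 : Nat.gcd a b = 1 := hab
  rwa [h2, pow_one] at h1

/-- elements of a subgroup are killed by its order. -/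
theorem pow_card_subgroup {H : Subgroup G} {g : G} (hg : g ∈ H) : g ^ Nat.card H = 1 := by
  have := pow_card_eq_one' (G := H) (x := ⟨g, hg⟩)
  exact congrArg Subtype.val this

end OrdTools

end Cfsg.Agent.Helper9
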