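import Cfsg.Agent.Helper82.ExcBlock
import Cfsg.Agent.Helper80.CharOrtho

/-!
# Brauer–Reynolds: normal form of the principal block for a Sylow subgroup of prime order (helper9)

`BRTab p M P q` records the principal `p`-block of `G` (Sylow `p`-subgroup `P` of order `p`,
`q = |N(P) : C(P)|`) in normal form: the trivial character, the non-exceptional characters of
sign `+1` (`X1`, nontrivial) and of sign `-1` (`X2`), and the exceptional characters `Y`.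
-/

set_option autoImplicit false
open Cfsg
open scoped ComplexConjugate

namespace Cfsg.Agent.Helper9

universe u

/-- Normal form of the principal block when `|P| = p`. -/
structure BRTab {G : Type u} [Group G] [Fintype G] (p : ℕ) (M : Ideal Cfsg.AlgInt)
    (P : Sylow p G) (q : ℕ) where
  X1 : Finset (Cfsg.IrrCharacter G)
  X2 : Finset (Cfsg.IrrCharacter G)
  Y : Finset (Cfsg.IrrCharacter G)
  ε : ℤ
  hε : ε = 1 ∨ ε = -1
  hB : ∀ χ : Cfsg.IrrCharacter G, χ ∈ Cfsg.principalBlock M G ↔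
    (χ = Helper81.trivIrr G ∨ χ ∈ X1 ∨ χ ∈ X2 ∨ χ ∈ Y)
  h1X1 : Helper81.trivIrr G ∉ X1
  h1X2 : Helper81.trivIrr G ∉ X2
  h1Y : Helper81.trivIrr G ∉ Y
  hX12 : Disjoint X1 X2
  hX1Y : Disjoint X1 Y
  hX2Y : Disjoint X2 Y
  hcard : 1 + X1.card + X2.card = q
  hcardY : Y.card = (p - 1) / q
  hX1 : ∀ χ ∈ X1, ((Cfsg.charDegree (χ : G → ℂ) : ℤ) ≡ 1 [ZMOD p]) ∧
    ∀ x : G, x ∈ (P : Subgroup G) → x ≠ 1 → ∀ y : G,
      y ∈ Subgroup.centralizer ((P : Subgroup G) : Set G) → ¬ p ∣ orderOf y →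
      (χ : G → ℂ) (x * y) = 1
  hX2 : ∀ χ ∈ X2, ((Cfsg.charDegree (χ : G → ℂ) : ℤ) ≡ -1 [ZMOD p]) ∧
    ∀ x : G, x ∈ (P : Subgroup G) → x ≠ 1 → ∀ y : G,
      y ∈ Subgroup.centralizer ((P : Subgroup G) : Set G) → ¬ p ∣ orderOf y →
      (χ : G → ℂ) (x * y) = -1
  hYdeg : ∀ θ ∈ Y, (Cfsg.charDegree (θ : G → ℂ) : ℤ) ≡ ε * (q : ℤ) [ZMOD p]
  hYreg : ∀ θ ∈ Y, ∀ θ' ∈ Y, ∀ g : G, ¬ p ∣ orderOf g → (θ : G → ℂ) g = (θ' : G → ℂ) g
  hrel : ∀ θ ∈ Y, ∀ g : G, ¬ p ∣ orderOf g →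
    (ε : ℂ) * (θ : G → ℂ) g = 1 + ∑ χ ∈ X1, (χ : G → ℂ) g - ∑ χ ∈ X2, (χ : G → ℂ) g

end Cfsg.Agent.Helper9
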