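import Cfsg.Agent.Helper25.Bsw2

set_option autoImplicit false

namespace Cfsg.Agent.Helper9

open Cfsg.Agent.Helper25 Subgroup

/-- centralizer of a conjugate -/
theorem bswEP_cent_conj {G : Type*} [Group G] (c a g : G) :
    g ∈ centralizer ({c * a * c⁻¹} : Set G) ↔ c⁻¹ * g * c ∈ centralizer ({a} : Set G) := by
  simp only [mem_centralizer_iff, Set.mem_singleton_iff, forall_eq]
  constructor
  · intro h
    have e : a * (c⁻¹ * g * c) = c⁻¹ * ((c * a * c⁻¹) * g) * c := by group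
    rw [e, h]; group
  · intro h
    have e : c * a * c⁻¹ * g = c * (a * (c⁻¹ * g * c)) * c⁻¹ := by group
    rw [e, h]; group

theorem bswEP_card_ne_one {G : Type*} [Group G] [Finite G] (A : Subgroup G) :
    Nat.card {a : ↥A // a ≠ 1} + 1 = Nat.card ↥A := by
  classical
  rw [← Finite.card_option]
  exact Nat.card_congr (Equiv.optionSubtypeNe (1 : ↥A))

/-- PIECE EP of CALL S3282: final assembly in the case `q = 2k + 1`. -/
theorem bsw_final_plus {G : Type*} [Group G] [Finite G] {t s : G} {K : Subgroup G}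
    (h : BswHyp t s K) (hF5 : BswF5 K) (q : ℕ) (hout : BswOutPlus K q) : BswGoal G := by
  classical
  obtain ⟨hq, hG, hcase, hZ⟩ := hout
  have hk : 0 < Nat.card K := Nat.card_pos
  have hsq : q ^ 2 - 1 = 4 * Nat.card K * (Nat.card K + 1) := by
    have : q ^ 2 = 4 * Nat.card K * (Nat.card K + 1) + 1 := by rw [hq]; ring
    omega
  have hZpos : 0 < Nat.card {g : G // g ∉ bswCl K ∧ bswA g = q} := by
    rw [hZ, hsq]; positivity
  obtain ⟨⟨z, hzcl, hza⟩⟩ := (Nat.card_pos_iff.1 hZpos).1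
  have hza0 : 0 < bswA z := by rw [hza]; omega
  obtain ⟨hab, hcent, u, x, L, hu, huinv, huL, hLK, hAL, hNA, hLdvd⟩ := hF5 z hzcl hza0
  set A := centralizer ({z} : Set G) with hA
  have hz1 : z ≠ 1 := by
    rintro rfl
    exact hzcl (mem_bswCl_of_mem K.one_mem)
  have hzA : z ∈ A := by
    rw [hA, mem_centralizer_iff]
    intro y hy
    rw [Set.mem_singleton_iff.1 hy]
  have hAcard : Nat.card A = q := by
    have := (hcent z hzA hz1).2.2
    rw [← this, hza]
  have hconjZ : ∀ (g a : G), a ∈ A → a ≠ 1 →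
      (g * a * g⁻¹ ∉ bswCl K ∧ bswA (g * a * g⁻¹) = q) := by
    intro g a ha ha1
    obtain ⟨h1, h2, h3⟩ := hcent a ha ha1
    refine ⟨fun hc => h1 ((bswCl_conj K a g).1 hc), ?_⟩
    rw [bswA_conj, h3, hAcard]
  have hconjC : ∀ (g a : G), a ∈ A → a ≠ 1 →
      ∀ y, y ∈ centralizer ({g * a * g⁻¹} : Set G) ↔ g⁻¹ * y * g ∈ A := by
    intro g a ha ha1 y
    rw [bswEP_cent_conj, (hcent a ha ha1).2.1]
  -- the choice function
  let ρ : G → G := fun y =>
    if hy : ∃ g a, a ∈ A ∧ a ≠ 1 ∧ g * a * g⁻¹ = y then Classical.choose hy else 1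
  have hρ : ∀ (g a : G), a ∈ A → a ≠ 1 →
      (ρ (g * a * g⁻¹))⁻¹ * g ∈ normalizer ((A : Subgroup G) : Set G) := by
    intro g a ha ha1
    have hy : ∃ g' a', a' ∈ A ∧ a' ≠ 1 ∧ g' * a' * g'⁻¹ = g * a * g⁻¹ := ⟨g, a, ha, ha1, rfl⟩
    have hρy : ρ (g * a * g⁻¹) = Classical.choose hy := dif_pos hy
    obtain ⟨a₀, ha₀, ha₀1, he⟩ := Classical.choose_spec hy
    rw [← hρy] at he
    set g₀ := ρ (g * a * g⁻¹) with hg₀
    rw [mem_normalizer_iff]
    intro b
    have e1 := hconjC g a ha ha1 (g * b * g⁻¹)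
    have e2 := hconjC g₀ a₀ ha₀ ha₀1 (g * b * g⁻¹)
    rw [he] at e2
    have e3 : g⁻¹ * (g * b * g⁻¹) * g = b := by group
    have e4 : g₀⁻¹ * (g * b * g⁻¹) * g₀ = g₀⁻¹ * g * b * (g₀⁻¹ * g)⁻¹ := by group
    rw [e3] at e1
    rw [e4] at e2
    exact e1.symm.trans e2
  -- the injection
  let F : G × {a : ↥A // a ≠ 1} →
      {y : G // y ∉ bswCl K ∧ bswA y = q} × ↥(normalizer ((A : Subgroup G) : Set G)) :=
    fun p => (⟨p.1 * (p.2.1 : G) * p.1⁻¹,
        hconjZ p.1 p.2.1 p.2.1.2 (fun e => p.2.2 (Subtype.ext e))⟩,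
      ⟨(ρ (p.1 * (p.2.1 : G) * p.1⁻¹))⁻¹ * p.1,
        hρ p.1 p.2.1 p.2.1.2 (fun e => p.2.2 (Subtype.ext e))⟩)
  have hF : Function.Injective F := by
    rintro ⟨g, ⟨⟨a, ha⟩, ha1⟩⟩ ⟨g', ⟨⟨a', ha'⟩, ha1'⟩⟩ hpp
    simp only [F, Prod.mk.injEq, Subtype.mk.injEq] at hpp
    obtain ⟨hy, hn⟩ := hpp
    rw [hy] at hn
    have hgg : g = g' := mul_left_cancel hn
    subst hgg
    have haa : a = a' := by
      have := congrArg (fun w => g⁻¹ * w * g) hy
      simpa [mul_assoc] using this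
    subst haa
    rfl
  have hcount := Nat.card_le_card_of_injective F hF
  rw [Nat.card_prod, Nat.card_prod, hZ, hsq] at hcount
  have hA1 : Nat.card {a : ↥A // a ≠ 1} = 2 * Nat.card K := by
    have := bswEP_card_ne_one A
    rw [hAcard] at this
    omega
  rw [hA1] at hcount
  -- |N(A)| ≤ |A| |L|
  have hLN : L ≤ normalizer ((A : Subgroup G) : Set G) := by rw [hNA]; exact le_sup_right
  have hNle : Nat.card (normalizer ((A : Subgroup G) : Set G)) ≤ q * Nat.card L := by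
    rw [hNA, ← hAcard, ← Nat.card_prod]
    have hset := coe_mul_of_right_le_normalizer_left A L hLN
    let Ψ : ↥A × ↥L → ↥(A ⊔ L) := fun p =>
      ⟨(p.1 : G) * (p.2 : G), mul_mem (mem_sup_left p.1.2) (mem_sup_right p.2.2)⟩
    apply Nat.card_le_card_of_surjective Ψ
    rintro ⟨w, hw⟩
    have hw' : w ∈ ((A ⊔ L : Subgroup G) : Set G) := hw
    rw [hset, Set.mem_mul] at hw'
    obtain ⟨a, ha, l, hl, rfl⟩ := hw'
    exact ⟨(⟨a, ha⟩, ⟨l, hl⟩), rfl⟩
  have hLle : Nat.card L ≤ Nat.card K := by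
    have := Subgroup.card_le_of_le hLK
    rwa [Subgroup.card_map_of_injective (MulAut.conj x).injective] at this
  have hGc : Nat.card G = 2 * Nat.card K * (Nat.card K + 1) * (2 * Nat.card K + 1) := by
    have e : q - 1 = 2 * Nat.card K := by omega
    rw [e, hq] at hG
    have : 2 * Nat.card G = 2 * (2 * Nat.card K * (Nat.card K + 1) * (2 * Nat.card K + 1)) := by
      rw [hG]; ring
    omega
  have hLge : Nat.card K ≤ Nat.card L := by
    rw [hGc] at hcount
    have h1 : (4 * Nat.card K * (Nat.card K + 1)) * (Nat.card K * (2 * Nat.card K + 1)) ≤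
        (4 * Nat.card K * (Nat.card K + 1)) *
          Nat.card (normalizer ((A : Subgroup G) : Set G)) := by
      calc (4 * Nat.card K * (Nat.card K + 1)) * (Nat.card K * (2 * Nat.card K + 1))
          = 2 * Nat.card K * (Nat.card K + 1) * (2 * Nat.card K + 1) * (2 * Nat.card K) := by ring
        _ ≤ _ := hcount
    have h2 := Nat.le_of_mul_le_mul_left h1 (by positivity)
    have h3 : Nat.card K * (2 * Nat.card K + 1) ≤ (2 * Nat.card K + 1) * Nat.card L := by
      rw [hq] at hNle; exact h2.trans hNle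
    rw [mul_comm] at h3
    exact Nat.le_of_mul_le_mul_left h3 (by positivity)
  have hLeq : L = K.map (MulAut.conj x).toMonoidHom := by
    apply Subgroup.eq_of_le_of_card_ge hLK
    rw [Subgroup.card_map_of_injective (MulAut.conj x).injective]
    exact hLge
  have hLmem : ∀ l : G, l ∈ L ↔ x⁻¹ * l * x ∈ K := by
    intro l
    rw [hLeq, mem_map_equiv, MulAut.conj_symm_apply]
  -- the subgroups
  set Q : Subgroup G := A.map (MulAut.conj x⁻¹).toMonoidHom with hQ
  have hQmem : ∀ g : G, g ∈ Q ↔ x * g * x⁻¹ ∈ A := by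
    intro g
    rw [hQ, mem_map_equiv, MulAut.conj_symm_apply, inv_inv]
  have hQcard : Nat.card Q = q := by
    rw [hQ, Subgroup.card_map_of_injective (MulAut.conj x⁻¹).injective, hAcard]
  have hK1 : K ≠ ⊥ := by
    intro e
    have := h.htK
    rw [e, mem_bot] at this
    exact bsw_ne_one_of_order_two h.ht this
  refine ⟨Q, K, ?_, ?_, ⟨⟨fun a b => Subtype.ext (h.hKab a a.2 b b.2)⟩⟩, ?_, ?_, ?_, ?_⟩
  · rw [hQcard]; exact hG
  · intro y hy hy1
    have hya : x * y * x⁻¹ ∈ A := (hQmem y).1 hy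
    have hya1 : x * y * x⁻¹ ≠ 1 := by
      intro e
      apply hy1
      have : y = x⁻¹ * (x * y * x⁻¹) * x := by group
      rw [this, e]; group
    have hyy : y = x⁻¹ * (x * y * x⁻¹) * x⁻¹⁻¹ := by group
    ext g
    rw [hQmem]
    conv_lhs => rw [hyy]
    rw [hconjC x⁻¹ _ hya hya1 g, inv_inv]
  · rw [hQcard, hq]
  · rw [eq_bot_iff]
    intro y hy
    obtain ⟨hyQ, hyK⟩ := mem_inf.1 hy
    have h1 : x * y * x⁻¹ ∈ A ⊓ L := by
      refine mem_inf.2 ⟨(hQmem y).1 hyQ, (hLmem _).2 ?_⟩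
      have : x⁻¹ * (x * y * x⁻¹) * x = y := by group
      rw [this]; exact hyK
    rw [hAL, mem_bot] at h1
    rw [mem_bot]
    have : y = x⁻¹ * (x * y * x⁻¹) * x := by group
    rw [this, h1]; group
  · have e1 : normalizer ((Q : Subgroup G) : Set G) =
        (normalizer ((A : Subgroup G) : Set G)).map (MulAut.conj x⁻¹).toMonoidHom :=
      (map_equiv_normalizer_eq A (MulAut.conj x⁻¹)).symm
    rw [e1, hNA, Subgroup.map_sup]
    congr 1
    ext y
    rw [mem_map_equiv, MulAut.conj_symm_apply, hLmem, inv_inv]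
    have : x⁻¹ * (x * y * x⁻¹) * x = y := by group
    rw [this]
  · intro X hX hX1
    refine ⟨(h.normalizer_eq hX hX1).trans (h.normalizer_eq le_rfl hK1).symm, s, h.hs, h.hsK,
      h.hinv, ?_⟩
    rw [h.normalizer_eq le_rfl hK1, h.hH]

end Cfsg.Agent.Helper9
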