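/-
helper9: piece V1 of CALL S2480 (helper40): the kernel of multiplication by `p^k` on `F[X]/(p^e)`
has dimension `deg p * min k e`.
-/
import Mathlib
import Cfsg.Agent.Helper40.KGLDefs
import Cfsg.Agent.Helper40.KSLDefs
import Cfsg.Agent.Helper40.KPSLDefs

set_option autoImplicit false

namespace Cfsg.Agent.Helper9

open Polynomial Cfsg.Agent.Helper40.KGL Cfsg.Agent.Helper40.KSL Cfsg.Agent.Helper40.KPSL
open scoped DirectSum
open Classical

universe u v

theorem kpsl_mulQ_mk {F : Type u} [Field F] (f h a : F[X]) :
    mulQ f h (Submodule.Quotient.mk a) = Submodule.Quotient.mk (h * a) := rfl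

theorem kpsl_finrank_quot {F : Type u} [Field F] (f : F[X]) :
    Module.finrank F (F[X] ⧸ Submodule.span F[X] {f}) = f.natDegree :=
  finrank_quotient_span_eq_natDegree

/-- PIECE V1 of CALL S2480. -/
theorem finrank_ker_mulQ_pow {F : Type u} [Field F] (p : F[X]) (hm : p.Monic) (e k : ℕ) :
    Module.finrank F (LinearMap.ker (mulQ (p ^ e) (p ^ k))) = p.natDegree * min k e := by
  have hp0 : p ≠ 0 := hm.ne_zero
  rcases le_or_gt e k with hek | hke
  · -- the map is zero
    have htop : LinearMap.ker (mulQ (p ^ e) (p ^ k)) = ⊤ := by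
      rw [eq_top_iff]
      intro y _
      induction y using Submodule.Quotient.induction_on with
      | _ a =>
        rw [LinearMap.mem_ker, kpsl_mulQ_mk, Submodule.Quotient.mk_eq_zero,
          Submodule.mem_span_singleton]
        exact ⟨p ^ (k - e) * a, by
          rw [smul_eq_mul, mul_assoc, mul_comm a, ← mul_assoc, ← pow_add, Nat.sub_add_cancel hek]⟩
    rw [htop, finrank_top, kpsl_finrank_quot, hm.natDegree_pow, Nat.min_eq_right hek, Nat.mul_comm]
  · -- `k < e`: the kernel is the image of `p^(e-k)`, isomorphic to `F[X]/(p^k)`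
    have hsplit : p ^ e = p ^ (e - k) * p ^ k := by
      rw [← pow_add, Nat.sub_add_cancel hke.le]
    let f : F[X] →ₗ[F] (F[X] ⧸ Submodule.span F[X] {p ^ e}) :=
      ((Submodule.span F[X] {p ^ e}).mkQ.restrictScalars F) ∘ₗ (LinearMap.mulLeft F (p ^ (e - k)))
    have hf : ∀ a : F[X], f a = Submodule.Quotient.mk (p ^ (e - k) * a) := fun a => rfl
    have hker : LinearMap.ker f = (Submodule.span F[X] {p ^ k}).restrictScalars F := by
      ext a
      rw [LinearMap.mem_ker, hf, Submodule.Quotient.mk_eq_zero, Submodule.restrictScalars_mem,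
        Submodule.mem_span_singleton, Submodule.mem_span_singleton]
      constructor
      · rintro ⟨c, hc⟩
        refine ⟨c, ?_⟩
        have h1 : p ^ (e - k) * (c * p ^ k) = p ^ (e - k) * a := by
          rw [← hc, smul_eq_mul, hsplit]; ring
        exact mul_left_cancel₀ (pow_ne_zero _ hp0) h1
      · rintro ⟨c, hc⟩
        refine ⟨c, ?_⟩
        rw [← hc, smul_eq_mul, smul_eq_mul, hsplit]; ring
    have hrange : LinearMap.range f = LinearMap.ker (mulQ (p ^ e) (p ^ k)) := by
      ext y
      induction y using Submodule.Quotient.induction_on with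
      | _ b =>
        rw [LinearMap.mem_range, LinearMap.mem_ker, kpsl_mulQ_mk, Submodule.Quotient.mk_eq_zero,
          Submodule.mem_span_singleton]
        constructor
        · rintro ⟨a, ha⟩
          rw [hf] at ha
          have h1 : p ^ (e - k) * a - b ∈ Submodule.span F[X] {p ^ e} :=
            (Submodule.Quotient.eq _).mp ha
          obtain ⟨c, hc⟩ := Submodule.mem_span_singleton.mp h1
          refine ⟨a - c * p ^ k, ?_⟩
          rw [smul_eq_mul] at hc ⊢
          have h2 : b = p ^ (e - k) * a - c * p ^ e := by rw [hc]; ring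
          rw [h2, hsplit]; ring
        · rintro ⟨c, hc⟩
          rw [smul_eq_mul, hsplit] at hc
          have h1 : p ^ k * (c * p ^ (e - k)) = p ^ k * b := by rw [← hc]; ring
          have h2 : c * p ^ (e - k) = b := mul_left_cancel₀ (pow_ne_zero _ hp0) h1
          refine ⟨c, ?_⟩
          rw [hf, ← h2, mul_comm]
    rw [← hrange, ← f.quotKerEquivRange.finrank_eq,
      (Submodule.quotEquivOfEq _ _ hker).finrank_eq,
      (Submodule.Quotient.restrictScalarsEquiv F (Submodule.span F[X] {p ^ k})).finrank_eq,
      kpsl_finrank_quot, hm.natDegree_pow, Nat.min_eq_left hke.le, Nat.mul_comm]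

end Cfsg.Agent.Helper9
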