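/-
helper9: piece V3 of CALL S2480 (helper40): the kernel of `aeval φ h` decomposes along a primary
decomposition of the `F[X]`-module `V`.
-/
import Mathlib
import Cfsg.Agent.Helper40.KGLDefs
import Cfsg.Agent.Helper40.KSLDefs
import Cfsg.Agent.Helper40.KPSLDefs

set_option autoImplicit false

namespace Cfsg.Agent.Helper9

open Polynomial Cfsg.Agent.Helper40.KGL Cfsg.Agent.Helper40.KSL Cfsg.Agent.Helper40.KPSL
open scoped DirectSum
open Classical

universe u v

/-- PIECE V3 of CALL S2480. -/
theorem finrank_ker_aeval_eq_sum {F : Type u} [Field F] {V : Type v} [AddCommGroup V]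
    [Module F V] [FiniteDimensional F V] (φ : Module.End F V)
    {ι : Type u} [Fintype ι] (p : ι → F[X]) (e : ι → ℕ) (hp : ∀ i, (p i).Monic)
    (ψ : Module.AEval' φ ≃ₗ[F[X]] ⨁ i, F[X] ⧸ Submodule.span F[X] {p i ^ e i}) (h : F[X]) :
    Module.finrank F (LinearMap.ker (Polynomial.aeval φ h)) =
      ∑ i, Module.finrank F (LinearMap.ker (mulQ (p i ^ e i) h)) := by
  have hfin : ∀ i, Module.Finite F (F[X] ⧸ Submodule.span F[X] {p i ^ e i}) :=
    fun i => ((hp i).pow (e i)).finite_quotient
  -- the identification of `V` with the product of the primary quotients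
  let Ψ : V ≃ₗ[F] (∀ i, F[X] ⧸ Submodule.span F[X] {p i ^ e i}) :=
    (Module.AEval'.of φ).trans ((ψ.restrictScalars F).trans
      (DirectSum.linearEquivFunOnFintype F ι (fun i => F[X] ⧸ Submodule.span F[X] {p i ^ e i})))
  have hΨ : ∀ (v : V) (i : ι), Ψ v i = ψ (Module.AEval'.of φ v) i := fun v i => rfl
  -- the diagonal map
  let D : (∀ i, F[X] ⧸ Submodule.span F[X] {p i ^ e i}) →ₗ[F]
      (∀ i, F[X] ⧸ Submodule.span F[X] {p i ^ e i}) :=
    LinearMap.pi (fun i => (mulQ (p i ^ e i) h).comp (LinearMap.proj i))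
  have hD : ∀ (y : ∀ i, F[X] ⧸ Submodule.span F[X] {p i ^ e i}) (i : ι),
      D y i = mulQ (p i ^ e i) h (y i) := fun y i => rfl
  have hDs : ∀ (y : ∀ i, F[X] ⧸ Submodule.span F[X] {p i ^ e i}) (i : ι),
      D y i = h • y i := fun y i => rfl
  have hint : ∀ v : V, Ψ (Polynomial.aeval φ h v) = D (Ψ v) := by
    intro v
    funext i
    rw [hDs, hΨ, hΨ]
    have h1 : Module.AEval'.of φ (Polynomial.aeval φ h v) = h • Module.AEval'.of φ v :=
      Module.AEval.of_aeval_smul (R := F) (M := V) (a := φ) h v
    rw [h1, map_smul, DirectSum.smul_apply]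
  have hker : LinearMap.ker (Polynomial.aeval φ h)
      = (LinearMap.ker D).map (Ψ.symm : (∀ i, F[X] ⧸ Submodule.span F[X] {p i ^ e i}) →ₗ[F] V) := by
    ext x
    rw [LinearMap.mem_ker, Submodule.mem_map]
    constructor
    · intro hx
      refine ⟨Ψ x, ?_, by simp⟩
      rw [LinearMap.mem_ker, ← hint, hx, map_zero]
    · rintro ⟨y, hy, rfl⟩
      rw [LinearMap.mem_ker] at hy
      apply Ψ.injective
      rw [hint, map_zero]
      simpa using hy
  -- the kernel of the diagonal map is the product of the kernels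
  let Φ : (LinearMap.ker D) ≃ₗ[F] (∀ i, LinearMap.ker (mulQ (p i ^ e i) h)) :=
    { toFun := fun y i => ⟨y.1 i, by
          have h1 := congrFun (LinearMap.mem_ker.mp y.2) i
          rw [hD] at h1
          exact LinearMap.mem_ker.mpr h1⟩
      map_add' := fun a b => by
        funext i
        exact Subtype.ext rfl
      map_smul' := fun c a => by
        funext i
        exact Subtype.ext rfl
      invFun := fun z => ⟨fun i => (z i).1, by
          rw [LinearMap.mem_ker]
          funext i
          rw [hD]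
          exact LinearMap.mem_ker.mp (z i).2⟩
      left_inv := fun y => rfl
      right_inv := fun z => rfl }
  have hfree : ∀ i, Module.Free F (LinearMap.ker (mulQ (p i ^ e i) h)) :=
    fun i => Module.Free.of_divisionRing F _
  have hfin' : ∀ i, Module.Finite F (LinearMap.ker (mulQ (p i ^ e i) h)) :=
    fun i => inferInstance
  rw [hker, LinearEquiv.finrank_map_eq, Φ.finrank_eq, Module.finrank_pi_fintype]

end Cfsg.Agent.Helper9
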