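/-
helper9: piece V7 of CALL S2480 (helper40): conjugate matrices have kernels of `aeval` of equal
dimension.
-/
import Mathlib
import Cfsg.Agent.Helper40.KGLDefs
import Cfsg.Agent.Helper40.KSLDefs
import Cfsg.Agent.Helper40.KPSLDefs

set_option autoImplicit false

namespace Cfsg.Agent.Helper9

open Polynomial Cfsg.Agent.Helper40.KGL Cfsg.Agent.Helper40.KSL Cfsg.Agent.Helper40.KPSL
open scoped DirectSum
open Classical

universe u v

/-- the kernel of a conjugated endomorphism -/
theorem kpsl_ker_conj {F : Type u} [Field F] {V : Type v} [AddCommGroup V] [Module F V]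
    (E : V ≃ₗ[F] V) (B : Module.End F V) :
    LinearMap.ker (E.conjAlgEquiv F B) = (LinearMap.ker B).map (E : V →ₗ[F] V) := by
  ext x
  rw [LinearMap.mem_ker, LinearEquiv.conjAlgEquiv_apply, Submodule.mem_map]
  constructor
  · intro hx
    refine ⟨E.symm x, ?_, by simp⟩
    rw [LinearMap.mem_ker]
    have h1 : E (B (E.symm x)) = 0 := hx
    exact E.map_eq_zero_iff.mp h1
  · rintro ⟨y, hy, rfl⟩
    rw [LinearMap.mem_ker] at hy
    simp [hy]

/-- PIECE V7 of CALL S2480. -/
theorem finrank_ker_aeval_of_isConj {F : Type u} [Field F] {n : ℕ} (g g' : GL (Fin n) F)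
    (hc : IsConj g g') (f : F[X]) :
    Module.finrank F (LinearMap.ker
        (Polynomial.aeval (Matrix.toLin' (g : Matrix (Fin n) (Fin n) F)) f)) =
      Module.finrank F (LinearMap.ker
        (Polynomial.aeval (Matrix.toLin' (g' : Matrix (Fin n) (Fin n) F)) f)) := by
  obtain ⟨c, hc⟩ := isConj_iff.mp hc
  have h1 : (c : Matrix (Fin n) (Fin n) F) *
      ((c⁻¹ : GL (Fin n) F) : Matrix (Fin n) (Fin n) F) = 1 := by
    rw [← Units.val_mul, mul_inv_cancel, Units.val_one]
  have h2 : ((c⁻¹ : GL (Fin n) F) : Matrix (Fin n) (Fin n) F) *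
      (c : Matrix (Fin n) (Fin n) F) = 1 := by
    rw [← Units.val_mul, inv_mul_cancel, Units.val_one]
  let E : (Fin n → F) ≃ₗ[F] (Fin n → F) := Matrix.toLin'OfInv h2 h1
  have hE : (E : (Fin n → F) →ₗ[F] (Fin n → F))
      = Matrix.toLin' (c : Matrix (Fin n) (Fin n) F) := rfl
  have hEs : (E.symm : (Fin n → F) →ₗ[F] (Fin n → F))
      = Matrix.toLin' ((c⁻¹ : GL (Fin n) F) : Matrix (Fin n) (Fin n) F) := rfl
  have hconj : Matrix.toLin' (g' : Matrix (Fin n) (Fin n) F)
      = E.conjAlgEquiv F (Matrix.toLin' (g : Matrix (Fin n) (Fin n) F)) := by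
    rw [LinearEquiv.conjAlgEquiv_apply, hE, hEs, ← hc, Units.val_mul, Units.val_mul,
      Matrix.toLin'_mul, Matrix.toLin'_mul, LinearMap.comp_assoc]
  have hae : Polynomial.aeval (Matrix.toLin' (g' : Matrix (Fin n) (Fin n) F)) f
      = E.conjAlgEquiv F (Polynomial.aeval (Matrix.toLin' (g : Matrix (Fin n) (Fin n) F)) f) := by
    rw [hconj, Polynomial.aeval_algEquiv]
    rfl
  rw [hae, kpsl_ker_conj, LinearEquiv.finrank_map_eq]

end Cfsg.Agent.Helper9
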