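import Cfsg.Agent.Helper55.N9Defs

/-!
# S4409, piece Q4 (helper55's CALL): the subgroup generated by the squares of a 2-group is not
a quaternion group of order 8.
-/

set_option autoImplicit false

namespace Cfsg.Agent.Helper9.N9

open Subgroup Cfsg.Agent.Helper55.N9

variable {G : Type*} [Group G] [Finite G]

theorem n9q4_noncentral : ∀ q : QuaternionGroup 2, q ^ 2 ≠ 1 → ∃ q', q * q' ≠ q' * q := by
  decide

theorem n9q4_card :
    (Finset.univ.filter (fun q : QuaternionGroup 2 => q ^ 2 ≠ 1)).card = 6 := by decide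

theorem n9_q8_not_sqs (X : Subgroup G) (hX : IsPGroup 2 X) (hQ : IsQ8 (sqs X)) : False := by
  classical
  obtain ⟨e⟩ := hQ
  have : Fact (Nat.Prime 2) := ⟨Nat.prime_two⟩
  -- conjugation by elements of `X` preserves `sqs X`
  have hconj : ∀ x ∈ X, ∀ f ∈ sqs X, x * f * x⁻¹ ∈ sqs X := by
    intro x hx
    have hle : sqs X ≤ (sqs X).comap (MulAut.conj x).toMonoidHom := by
      unfold sqs
      rw [Subgroup.closure_le]
      rintro g ⟨y, hy, rfl⟩
      show (MulAut.conj x) (y ^ 2) ∈ closure {g : G | ∃ x ∈ X, g = x ^ 2}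
      apply Subgroup.subset_closure
      refine ⟨x * y * x⁻¹, X.mul_mem (X.mul_mem hx hy) (X.inv_mem hx), ?_⟩
      simp [MulAut.conj_apply, conj_pow]
    intro f hf
    have := hle hf
    simpa [MulAut.conj_apply] using this
  -- the action of `X` on `G` by conjugation
  let act : MulAction ↥X G :=
    MulAction.compHom G ((MulAut.conj : G →* MulAut G).comp X.subtype)
  have hsmul : ∀ (x : ↥X) (g : G), x • g = (x : G) * g * (x : G)⁻¹ := fun x g => rfl
  -- the set of elements of `sqs X` with nontrivial square, as a finset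
  let emb : QuaternionGroup 2 ↪ G :=
    ⟨fun q => ((e.symm q : ↥(sqs X)) : G), fun q q' h => e.symm.injective (Subtype.ext h)⟩
  let Ω : Finset G := (Finset.univ.filter (fun q : QuaternionGroup 2 => q ^ 2 ≠ 1)).map emb
  have hΩcard : Ω.card = 6 := by
    rw [Finset.card_map]; exact n9q4_card
  have hΩmem : ∀ g : G, g ∈ Ω ↔ g ∈ sqs X ∧ g ^ 2 ≠ 1 := by
    intro g
    constructor
    · intro hg
      obtain ⟨q, hq, rfl⟩ := Finset.mem_map.1 hg
      have hq2 : q ^ 2 ≠ 1 := (Finset.mem_filter.1 hq).2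
      refine ⟨(e.symm q).2, ?_⟩
      intro h
      apply hq2
      have h1 : (e.symm q) ^ 2 = 1 :=
        Subtype.ext (by rw [Subgroup.coe_pow, Subgroup.coe_one]; exact h)
      have h2 : e.symm (q ^ 2) = e.symm 1 := by rw [map_pow, h1, map_one]
      exact e.symm.injective h2
    · rintro ⟨hgF, hg2⟩
      refine Finset.mem_map.2 ⟨e ⟨g, hgF⟩, Finset.mem_filter.2 ⟨Finset.mem_univ _, ?_⟩, ?_⟩
      · intro h
        apply hg2
        have h1 : e (⟨g, hgF⟩ ^ 2) = e 1 := by rw [map_pow, h, map_one]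
        have h2 := e.injective h1
        have h3 := congrArg (fun f : ↥(sqs X) => (f : G)) h2
        simpa using h3
      · show ((e.symm (e ⟨g, hgF⟩) : ↥(sqs X)) : G) = g
        rw [MulEquiv.symm_apply_apply]
  have hΩinv : ∀ (x : ↥X) (g : G), g ∈ Ω → x • g ∈ Ω := by
    intro x g hg
    obtain ⟨hgF, hg2⟩ := (hΩmem g).1 hg
    refine (hΩmem _).2 ⟨?_, ?_⟩
    · rw [hsmul]; exact hconj x x.2 g hgF
    · rw [hsmul, conj_pow]
      intro h
      apply hg2
      have : g ^ 2 = (x : G)⁻¹ * ((x : G) * g ^ 2 * (x : G)⁻¹) * (x : G) := by group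
      rw [this, h]; group
  have horb : ∀ a ∈ Ω, MulAction.orbit ↥X a ⊆ (Ω : Set G) := by
    rintro a ha _ ⟨x, rfl⟩
    exact hΩinv x a ha
  have hncard_le : ∀ a ∈ Ω, (MulAction.orbit ↥X a).ncard ≤ 6 := by
    intro a ha
    have := Set.ncard_le_ncard (horb a ha) (Finset.finite_toSet Ω)
    rwa [Set.ncard_coe_finset, hΩcard] at this
  have hpow : ∀ a : G, ∃ n, (MulAction.orbit ↥X a).ncard = 2 ^ n := by
    intro a
    obtain ⟨n, hn⟩ := hX.card_orbit a
    exact ⟨n, by rw [← hn, Nat.card_coe_set_eq]⟩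
  -- an element of `Ω` with an orbit of size at most two
  have hex : ∃ a ∈ Ω, (MulAction.orbit ↥X a).ncard ≤ 2 := by
    have hne : Ω.Nonempty := by
      rw [← Finset.card_pos, hΩcard]; norm_num
    obtain ⟨a, ha⟩ := hne
    obtain ⟨n, hn⟩ := hpow a
    have h6 := hncard_le a ha
    rw [hn] at h6
    have hn2 : n ≤ 2 := by
      by_contra hcon
      have h3 : 3 ≤ n := by omega
      have : 2 ^ 3 ≤ 2 ^ n := Nat.pow_le_pow_right (by norm_num) h3
      omega
    by_cases hn1 : n ≤ 1
    · refine ⟨a, ha, ?_⟩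
      rw [hn]
      interval_cases n <;> norm_num
    · have hn' : n = 2 := by omega
      subst hn'
      -- the orbit of `a` has four elements; pick `b` outside
      have hdiff : ((Ω : Set G) \ MulAction.orbit ↥X a).ncard = 2 := by
        rw [Set.ncard_sdiff (horb a ha) (Set.toFinite _), Set.ncard_coe_finset, hΩcard, hn]
        norm_num
      have hne2 : ((Ω : Set G) \ MulAction.orbit ↥X a).Nonempty := by
        rw [← Set.ncard_pos (Set.toFinite _), hdiff]; norm_num
      obtain ⟨b, hbΩ, hbO⟩ := hne2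
      have hbΩ' : b ∈ Ω := by simpa using hbΩ
      refine ⟨b, hbΩ', ?_⟩
      have hsub : MulAction.orbit ↥X b ⊆ (Ω : Set G) \ MulAction.orbit ↥X a := by
        intro c hc
        refine ⟨horb b hbΩ' hc, ?_⟩
        intro hca
        apply hbO
        have h1 : MulAction.orbit ↥X c = MulAction.orbit ↥X a := MulAction.orbit_eq_iff.2 hca
        have h2 : MulAction.orbit ↥X c = MulAction.orbit ↥X b := MulAction.orbit_eq_iff.2 hc
        rw [← h1, h2]
        exact MulAction.mem_orbit_self b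
      have := Set.ncard_le_ncard hsub (Set.toFinite _)
      rwa [hdiff] at this
  obtain ⟨a, ha, hale⟩ := hex
  obtain ⟨haF, ha2⟩ := (hΩmem a).1 ha
  -- squares of elements of `X` fix `a`
  have hidx : (MulAction.stabilizer ↥X a).index ≤ 2 := by
    rw [MulAction.index_stabilizer]; exact hale
  have hsq : ∀ x : ↥X, x ^ 2 ∈ MulAction.stabilizer ↥X a := by
    intro x
    have hne0 : (MulAction.stabilizer ↥X a).index ≠ 0 := Subgroup.index_ne_zero_of_finite
    have h12 : (MulAction.stabilizer ↥X a).index = 1 ∨ (MulAction.stabilizer ↥X a).index = 2 := by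
      omega
    rcases h12 with h1 | h2
    · rw [Subgroup.index_eq_one] at h1
      rw [h1]; exact Subgroup.mem_top _
    · exact Subgroup.sq_mem_of_index_two h2 x
  have hcomm : ∀ x ∈ X, x ^ 2 * a = a * x ^ 2 := by
    intro x hx
    have h := hsq ⟨x, hx⟩
    rw [MulAction.mem_stabilizer_iff, hsmul] at h
    have h' : x ^ 2 * a * (x ^ 2)⁻¹ = a := by simpa using h
    calc x ^ 2 * a = x ^ 2 * a * (x ^ 2)⁻¹ * x ^ 2 := by group
      _ = a * x ^ 2 := by rw [h']
  have hcent : sqs X ≤ centralizer ({a} : Set G) := by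
    unfold sqs
    rw [Subgroup.closure_le]
    rintro g ⟨x, hx, rfl⟩
    show x ^ 2 ∈ centralizer ({a} : Set G)
    rw [Subgroup.mem_centralizer_iff]
    intro h hh
    rw [Set.mem_singleton_iff] at hh
    subst hh
    exact (hcomm x hx).symm
  -- but `a` is not central in `sqs X`
  have hq2 : (e ⟨a, haF⟩) ^ 2 ≠ 1 := by
    intro h
    apply ha2
    have h1 : e (⟨a, haF⟩ ^ 2) = e 1 := by rw [map_pow, h, map_one]
    have h2 := e.injective h1
    have h3 := congrArg (fun f : ↥(sqs X) => (f : G)) h2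
    simpa using h3
  obtain ⟨q', hq'⟩ := n9q4_noncentral _ hq2
  apply hq'
  have hf := hcent (e.symm q').2
  rw [Subgroup.mem_centralizer_iff] at hf
  have h1 : a * ((e.symm q' : ↥(sqs X)) : G) = ((e.symm q' : ↥(sqs X)) : G) * a :=
    hf a (Set.mem_singleton a)
  have h2 : (⟨a, haF⟩ : ↥(sqs X)) * e.symm q' = e.symm q' * ⟨a, haF⟩ := Subtype.ext h1
  have h3 := congrArg e h2
  simpa using h3

end Cfsg.Agent.Helper9.N9
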