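import Mathlib

set_option autoImplicit false

namespace Cfsg.Agent.Helper9

universe u

/-- A non-cyclic finite simple group is perfect, has no nontrivial normal `p'`-subgroup and no
normal Sylow `p`-subgroup (for `p` dividing its order). -/
theorem br_simple_facts {G : Type u} [Group G] [Finite G] [IsSimpleGroup G] (hG : ¬ IsCyclic G)
    (p : ℕ) [Fact p.Prime] (hdvd : p ∣ Nat.card G) :
    commutator G = ⊤ ∧
    (∀ K : Subgroup G, K.Normal → (Nat.card K).Coprime p → K = ⊥) ∧
    ∀ P : Sylow p G, ¬ (P : Subgroup G).Normal := by
  have hp : p.Prime := Fact.out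
  have hnc : ¬ ∀ a b : G, a * b = b * a := by
    intro hc
    let _ : CommGroup G := { ‹Group G› with mul_comm := hc }
    exact hG (IsSimpleGroup.isCyclic)
  refine ⟨?_, ?_, ?_⟩
  · have hcn : (commutator G).Normal := by rw [commutator_def]; infer_instance
    rcases hcn.eq_bot_or_eq_top with h | h
    · exfalso
      apply hnc
      intro a b
      rw [commutator_def, Subgroup.commutator_eq_bot_iff_le_centralizer] at h
      have h1 := h (Subgroup.mem_top b)
      rw [Subgroup.mem_centralizer_iff] at h1
      exact h1 a (Subgroup.mem_top a)
    · exact h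
  · intro K hK hcop
    rcases hK.eq_bot_or_eq_top with h | h
    · exact h
    · exfalso
      rw [h, Subgroup.card_top] at hcop
      have := Nat.Coprime.eq_one_of_dvd hcop.symm hdvd
      exact hp.one_lt.ne' this
  · intro P hP
    rcases hP.eq_bot_or_eq_top with h | h
    · have h1 : Nat.card (P : Subgroup G) = 1 := by rw [h, Subgroup.card_bot]
      have h2 := P.card_eq_multiplicity
      have h3 : p ∣ p ^ (Nat.card G).factorization p :=
        dvd_pow_self p ((hp.factorization_pos_of_dvd Nat.card_pos.ne' hdvd).ne')
      rw [← h2, h1] at h3
      exact hp.one_lt.ne' (Nat.dvd_one.mp h3)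
    · have hpg : IsPGroup p G := by
        have := P.isPGroup'
        rw [h] at this
        exact IsPGroup.of_equiv this Subgroup.topEquiv
      have : Nontrivial G := IsSimpleGroup.toNontrivial
      have hcn : Nontrivial (Subgroup.center G) := hpg.center_nontrivial
      rcases (inferInstance : (Subgroup.center G).Normal).eq_bot_or_eq_top with hc | hc
      · rw [hc] at hcn
        exact not_nontrivial _ hcn
      · apply hnc
        intro a b
        have ha : a ∈ Subgroup.center G := by rw [hc]; exact Subgroup.mem_top a
        exact (Subgroup.mem_center_iff.mp ha b).symm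

end Cfsg.Agent.Helper9
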