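import Cfsg.Agent.Helper9.BRDefs
import Cfsg.Agent.Helper9.BRSimple
import Cfsg.Agent.Helper78.Counting
import Cfsg.Agent.Helper46.BRA1g
import Cfsg.Agent.Helper75.BRNF
import Cfsg.Agent.Helper67.BRS1g
import Cfsg.Agent.Helper65.BRS2
import Cfsg.Agent.Helper8.BRS3
import Cfsg.Agent.Helper66.BRZg
import Cfsg.Agent.Helper10.BREg

/-!
# Brauer–Reynolds: perfect groups of order `< p³` with no normal `p'`-subgroup (helper9)

`br_core`: a finite perfect group `G` with `O_{p'}(G) = 1`, `p ∣ |G| < p³` and a non-normal Sylow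
`p`-subgroup is `PSL₂(p)` or `PSL₂(2^m)` with `p = 2^m + 1`.  Assembled from the pieces of
CALL S0999 (helpers 8, 10, 19, 29, 31, 37, 41, 46, 55, 65, 66, 67, 75).
-/

set_option autoImplicit false
open Cfsg

namespace Cfsg.Agent.Helper9

universe u

/-- The core: perfect, `O_{p'}(G) = 1`, Sylow `p`-subgroup not normal, `|G| < p³`. -/
theorem br_core {G : Type u} [Group G] [Finite G] (hperf : commutator G = ⊤) (p : ℕ)
    [Fact p.Prime] (hOp : ∀ K : Subgroup G, K.Normal → (Nat.card K).Coprime p → K = ⊥)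
    (hdvd : p ∣ Nat.card G) (hbig : Nat.card G < p ^ 3) (P : Sylow p G)
    (hPn : ¬ (P : Subgroup G).Normal) :
    (∃ (F : Type) (_ : Field F) (_ : Fintype F), Fintype.card F = p ∧ 3 < p ∧
      2 * Nat.card G = p * (p + 1) * (p - 1) ∧
      Nonempty (G ≃* Matrix.ProjectiveSpecialLinearGroup (Fin 2) F)) ∨
    (∃ (m : ℕ) (F : Type) (_ : Field F) (_ : Fintype F), Fintype.card F = 2 ^ m ∧
      p = 2 ^ m + 1 ∧ 3 < p ∧ Nat.card G = p * (p - 1) * (p - 2) ∧
      Nonempty (G ≃* Matrix.ProjectiveSpecialLinearGroup (Fin 2) F)) := by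
  have hp : p.Prime := Fact.out
  let _ : Fintype G := Fintype.ofFinite G
  obtain ⟨hodd, hP, q, n, v, hq, hq2, hqd, hn, hv, hSyl, hCv, hcard, hlt⟩ :=
    Cfsg.Agent.Helper46.br_setup_perfect hperf p hdvd hbig P hPn
  obtain ⟨M, hM⟩ := Cfsg.Agent.Helper78.exists_isPModular p hp
  obtain ⟨T⟩ := Cfsg.Agent.Helper75.br_tab_exists p M hM hodd P hP q hq hq2
  obtain ⟨hC, t, a, ht, hqt, hnt, hX1c, hX1, hX2, hcase⟩ :=
    Cfsg.Agent.Helper67.br_stage1_gen hperf hOp hodd hM P hP q n v hq hq2 hqd hn hv hCv hcard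
      hlt T
  have hp2 : 2 ≤ p := hp.two_le
  have hv1 : v = 1 := by
    rw [hC] at hCv
    have h1 : p * 1 = p * v := by rw [mul_one]; exact hCv
    exact (Nat.eq_of_mul_eq_mul_left (by omega) h1).symm
  subst hv1
  have hn' : n = t - 1 := by omega
  subst hn'
  have hcard' : Nat.card G = p * q * (1 + (t - 1) * p) := by rw [hcard, mul_one]
  have hq1 : q * t + 1 = p := by omega
  have key : t = 2 ∨ (q = 2 ∧ ∃ τ : G, orderOf τ = 2 ∧
      Nat.card (Subgroup.centralizer ({τ} : Set G)) = p - 1 ∧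
      ∀ c : G, c ∈ Subgroup.centralizer ({τ} : Set G) → c ≠ 1 → IsConj c τ) := by
    rcases hcase with ⟨hε, hqa, ha, hY⟩ | ⟨hε, hqa, hY⟩
    · left
      exact Cfsg.Agent.Helper65.br_stage_alpha hM P hP hC q t a T ht hqt ha hqa hε hX1 hX2 hY
    · exact Cfsg.Agent.Helper8.br_stage_beta hodd hM P hP hC q t a hq hcard' T ht hqt hqa hε
        hX1c hX1 hX2 hY
  rcases key with h2 | ⟨hq2', τ, hτ, hCτ, hconj⟩
  · left
    subst h2
    have h5 : 5 ≤ p := by omega
    have hSyl' : Nat.card (Sylow p G) = p + 1 := by rw [hSyl]; omega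
    have hcard'' : 2 * Nat.card G = p * (p + 1) * (p - 1) := by
      rw [hcard', ← hqt]
      have : 1 + (2 - 1) * p = p + 1 := by omega
      rw [this]
      ring
    obtain ⟨F, hF1, hF2, hF3, hF4⟩ :=
      Cfsg.Agent.Helper66.br_zassenhaus_gen hOp h5 P hP hC hSyl' hcard''
    exact ⟨F, hF1, hF2, hF3, by omega, hcard'', hF4⟩
  · right
    subst hq2'
    have h5 : 5 ≤ p := by omega
    have hcard'' : Nat.card G = p * (p - 1) * (p - 2) := by
      rw [hcard']
      have h1 : p - 1 = 2 * t := hqt.symm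
      have h2 : p - 2 = 2 * t - 1 := by omega
      have h3 : p = 2 * t + 1 := by omega
      rw [h1, h2]
      obtain ⟨s, rfl⟩ : ∃ s, t = s + 2 := ⟨t - 2, by omega⟩
      subst h3
      have e1 : s + 2 - 1 = s + 1 := by omega
      have e2 : 2 * (s + 2) - 1 = 2 * s + 3 := by omega
      rw [e1, e2]
      ring
    obtain ⟨m, F, hF1, hF2, hF3, hF4, hF5⟩ :=
      Cfsg.Agent.Helper10.br_sl2_even_gen hOp h5 hcard'' τ hτ hCτ hconj
    exact ⟨m, F, hF1, hF2, hF3, hF4, by omega, hcard'', hF5⟩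

end Cfsg.Agent.Helper9
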